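import Mathlib

/-!
# Babai's minimal degree bound: supports and invariant neighbourhood systems

`G` acts on a finite set `Ω`.  `supp Ω x` is the set of points moved by `x`; a `G`-invariant
neighbourhood system is a map `N : Ω → Finset Ω` with `N (g • γ) = g • N γ`.  If `x' • γ = δ` then
`N γ \ N δ` and `N δ \ N γ` are disjoint subsets of the support of `x'`.
-/

set_option autoImplicit false
set_option linter.unusedSectionVars false

namespace Cfsg.Agent.Lib.Helper95.Babai

open scoped Pointwise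

section Supp

variable {G : Type*} [Group G] (Ω : Type*) [MulAction G Ω] [Fintype Ω] [DecidableEq Ω]

/-- The support of `x` on `Ω`: the points moved by `x`. -/
def supp (x : G) : Finset Ω := Finset.univ.filter (fun z => x • z ≠ z)

variable {Ω}

theorem mem_supp {x : G} {z : Ω} : z ∈ supp Ω x ↔ x • z ≠ z := by
  simp [supp]

theorem supp_inv (x : G) : supp Ω x⁻¹ = supp Ω x := by
  ext z
  rw [mem_supp, mem_supp, not_iff_not, inv_smul_eq_iff]
  exact eq_comm

theorem supp_conj (k x : G) : supp Ω (k * x * k⁻¹) = k • supp Ω x := by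
  ext z
  rw [← Finset.inv_smul_mem_iff, mem_supp, mem_supp, not_iff_not, mul_smul, mul_smul]
  constructor
  · intro h
    calc x • k⁻¹ • z = k⁻¹ • (k • x • k⁻¹ • z) := by rw [inv_smul_smul]
      _ = k⁻¹ • z := by rw [h]
  · intro h
    rw [h, smul_inv_smul]

theorem card_supp_conj (k x : G) : (supp Ω (k * x * k⁻¹)).card = (supp Ω x).card := by
  rw [supp_conj, Finset.card_smul_finset]

end Supp

section Inv

variable (G : Type*) [Group G] {Ω : Type*} [MulAction G Ω] [Fintype Ω] [DecidableEq Ω]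

/-- `N` is a `G`-invariant neighbourhood system. -/
def IsInv (N : Ω → Finset Ω) : Prop := ∀ (g : G) (γ : Ω), N (g • γ) = g • N γ

variable {G}

theorem IsInv.smul_mem_iff {N : Ω → Finset Ω} (hN : IsInv G N) (g : G) {γ z : Ω} :
    g • z ∈ N (g • γ) ↔ z ∈ N γ := by
  rw [hN g γ, Finset.smul_mem_smul_finset_iff]

theorem IsInv.card_smul {N : Ω → Finset Ω} (hN : IsInv G N) (g : G) (γ : Ω) :
    (N (g • γ)).card = (N γ).card := by
  rw [hN g γ, Finset.card_smul_finset]

theorem IsInv.card_eq [MulAction.IsPretransitive G Ω] {N : Ω → Finset Ω} (hN : IsInv G N)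
    (γ δ : Ω) : (N γ).card = (N δ).card := by
  obtain ⟨g, rfl⟩ := MulAction.exists_smul_eq G δ γ
  exact hN.card_smul g δ

/-- **Step bound.** If `x'` moves `γ` to `δ`, then `N γ \ N δ` and `N δ \ N γ` are disjoint subsets
of the support of `x'` of the same size. -/
theorem IsInv.two_mul_card_sdiff_le {N : Ω → Finset Ω} (hN : IsInv G N) {x' : G} {γ δ : Ω}
    (h : x' • γ = δ) : 2 * (N γ \ N δ).card ≤ (supp Ω x').card := by
  have hδ : N δ = x' • N γ := by rw [← h, hN]
  have hA : N γ \ N δ ⊆ supp Ω x' := by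
    intro z hz
    rw [Finset.mem_sdiff] at hz
    rw [mem_supp]
    intro hfix
    apply hz.2
    rw [hδ, ← hfix]
    exact Finset.smul_mem_smul_finset hz.1
  have hB : N δ \ N γ ⊆ supp Ω x' := by
    intro z hz
    rw [Finset.mem_sdiff, hδ] at hz
    rw [mem_supp]
    intro hfix
    obtain ⟨w, hw, hwz⟩ := Finset.mem_smul_finset.mp hz.1
    have hwz' : w = z := by
      have h1 : x' • w = x' • z := by rw [hwz, hfix]
      exact smul_left_cancel x' h1
    exact hz.2 (hwz' ▸ hw)
  have hdisj : Disjoint (N γ \ N δ) (N δ \ N γ) := by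
    rw [Finset.disjoint_left]
    intro z hz hz'
    exact (Finset.mem_sdiff.mp hz').2 (Finset.mem_sdiff.mp hz).1
  have hcard : (N δ \ N γ).card = (N γ \ N δ).card := by
    have h1 := Finset.card_sdiff_add_card_inter (N δ) (N γ)
    have h2 := Finset.card_sdiff_add_card_inter (N γ) (N δ)
    have h3 : (N δ).card = (N γ).card := by rw [hδ, Finset.card_smul_finset]
    rw [Finset.inter_comm] at h1
    omega
  have h4 : ((N γ \ N δ) ∪ (N δ \ N γ)).card ≤ (supp Ω x').card :=
    Finset.card_le_card (Finset.union_subset hA hB)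
  rw [Finset.card_union_of_disjoint hdisj, hcard] at h4
  omega

theorem card_sdiff_triangle (N : Ω → Finset Ω) (a b c : Ω) :
    (N a \ N c).card ≤ (N a \ N b).card + (N b \ N c).card := by
  refine (Finset.card_le_card ?_).trans (Finset.card_union_le _ _)
  intro z hz
  rw [Finset.mem_sdiff] at hz
  rw [Finset.mem_union, Finset.mem_sdiff, Finset.mem_sdiff]
  by_cases hb : z ∈ N b
  · exact Or.inr ⟨hb, hz.2⟩
  · exact Or.inl ⟨hz.1, hb⟩

end Inv

section Orbital

variable (G : Type*) [Group G] {Ω : Type*} [MulAction G Ω] [Fintype Ω] [DecidableEq Ω]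

open Classical in
/-- The out-neighbours of `γ` in the orbital of `(α, β)`. -/
noncomputable def outN (α β γ : Ω) : Finset Ω :=
  Finset.univ.filter (fun δ => ∃ k : G, k • α = γ ∧ k • β = δ)

variable {G}

theorem mem_outN {α β γ δ : Ω} : δ ∈ outN G α β γ ↔ ∃ k : G, k • α = γ ∧ k • β = δ := by
  simp [outN]

theorem mem_outN_swap {α β γ δ : Ω} : δ ∈ outN G α β γ ↔ γ ∈ outN G β α δ := by
  rw [mem_outN, mem_outN]
  exact ⟨fun ⟨k, h1, h2⟩ => ⟨k, h2, h1⟩, fun ⟨k, h1, h2⟩ => ⟨k, h2, h1⟩⟩

theorem outN_isInv (α β : Ω) : IsInv G (outN G α β) := by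
  intro g γ
  ext z
  rw [← Finset.inv_smul_mem_iff, mem_outN, mem_outN]
  constructor
  · rintro ⟨k, h1, h2⟩
    exact ⟨g⁻¹ * k, by rw [mul_smul, h1, inv_smul_smul], by rw [mul_smul, h2]⟩
  · rintro ⟨k, h1, h2⟩
    exact ⟨g * k, by rw [mul_smul, h1], by rw [mul_smul, h2, smul_inv_smul]⟩

theorem notMem_outN_self {α β : Ω} (hαβ : α ≠ β) (γ : Ω) : γ ∉ outN G α β γ := by
  rw [mem_outN]
  rintro ⟨k, h1, h2⟩
  exact hαβ (smul_left_cancel k (h1.trans h2.symm))

theorem smul_mem_outN (α β : Ω) (k : G) : k • β ∈ outN G α β (k • α) :=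
  mem_outN.mpr ⟨k, rfl, rfl⟩

/-- In-degree equals out-degree. -/
theorem card_outN_swap [MulAction.IsPretransitive G Ω] (α β γ : Ω) :
    (outN G β α γ).card = (outN G α β γ).card := by
  classical
  have h1 : ∀ δ : Ω, (outN G α β δ).card = (outN G α β γ).card :=
    fun δ => (outN_isInv α β).card_eq δ γ
  have h2 : ∀ δ : Ω, (outN G β α δ).card = (outN G β α γ).card :=
    fun δ => (outN_isInv β α).card_eq δ γ
  have hsum : ∑ δ : Ω, (outN G α β δ).card = ∑ δ : Ω, (outN G β α δ).card := by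
    have e1 : ∀ δ : Ω, (outN G α β δ).card = ∑ z : Ω, if z ∈ outN G α β δ then 1 else 0 := by
      intro δ
      rw [Finset.card_eq_sum_ones, Finset.sum_ite_mem, Finset.univ_inter]
    have e2 : ∀ δ : Ω, (outN G β α δ).card = ∑ z : Ω, if z ∈ outN G β α δ then 1 else 0 := by
      intro δ
      rw [Finset.card_eq_sum_ones, Finset.sum_ite_mem, Finset.univ_inter]
    simp_rw [e1, e2]
    rw [Finset.sum_comm]
    refine Finset.sum_congr rfl (fun z _ => Finset.sum_congr rfl (fun δ _ => ?_))
    simp only [mem_outN_swap (α := α) (β := β) (γ := δ) (δ := z)]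
  simp_rw [h1, h2] at hsum
  rw [Finset.sum_const, Finset.sum_const, smul_eq_mul, smul_eq_mul] at hsum
  have hpos : 0 < (Finset.univ : Finset Ω).card := Finset.card_pos.mpr ⟨γ, Finset.mem_univ γ⟩
  exact (Nat.eq_of_mul_eq_mul_left hpos hsum).symm

end Orbital

end Cfsg.Agent.Lib.Helper95.Babai
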