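import Mathlib
import Cfsg.Agent.Lib.Helper95.Babai.Basic

/-!
# Babai's minimal degree bound: the undirected orbital graph

`ugraph G α β` is the undirected orbital graph of the pair `(α, β)`.  For a primitive action it is
connected; every edge is moved by a conjugate of `x^{±1}` when `β = x • α`; hence
`|Ω| - 1 ≤ deg * |supp x|`, and a pair without common neighbour forces `2 * deg ≤ 3 * |supp x|`.
-/

set_option autoImplicit false
set_option linter.unusedSectionVars false

namespace Cfsg.Agent.Lib.Helper95.Babai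

open scoped Pointwise

section Graph

variable (G : Type*) [Group G] {Ω : Type*} [MulAction G Ω]

/-- The undirected orbital graph of the pair `(α, β)`. -/
def ugraph (α β : Ω) (hαβ : α ≠ β) : SimpleGraph Ω where
  Adj γ δ := (∃ k : G, k • α = γ ∧ k • β = δ) ∨ (∃ k : G, k • α = δ ∧ k • β = γ)
  symm := ⟨fun _ _ h => h.symm⟩
  loopless := ⟨fun γ h => by
    rcases h with ⟨k, h1, h2⟩ | ⟨k, h1, h2⟩ <;>
      exact hαβ (smul_left_cancel k (h1.trans h2.symm))⟩

variable {G}

theorem ugraph_adj {α β : Ω} (hαβ : α ≠ β) {γ δ : Ω} :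
    (ugraph G α β hαβ).Adj γ δ ↔
      (∃ k : G, k • α = γ ∧ k • β = δ) ∨ (∃ k : G, k • α = δ ∧ k • β = γ) := Iff.rfl

theorem ugraph_adj_base {α β : Ω} (hαβ : α ≠ β) : (ugraph G α β hαβ).Adj α β :=
  Or.inl ⟨1, one_smul _ _, one_smul _ _⟩

theorem ugraph_adj_smul {α β : Ω} (hαβ : α ≠ β) (g : G) {γ δ : Ω}
    (h : (ugraph G α β hαβ).Adj γ δ) : (ugraph G α β hαβ).Adj (g • γ) (g • δ) := by
  rcases h with ⟨k, h1, h2⟩ | ⟨k, h1, h2⟩
  · exact Or.inl ⟨g * k, by rw [mul_smul, h1], by rw [mul_smul, h2]⟩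
  · exact Or.inr ⟨g * k, by rw [mul_smul, h1], by rw [mul_smul, h2]⟩

/-- The graph endomorphism induced by `g`. -/
def ugraphHom {α β : Ω} (hαβ : α ≠ β) (g : G) : ugraph G α β hαβ →g ugraph G α β hαβ :=
  ⟨fun z => g • z, fun h => ugraph_adj_smul hαβ g h⟩

theorem ugraph_reachable_smul {α β : Ω} (hαβ : α ≠ β) (g : G) {a b : Ω}
    (h : (ugraph G α β hαβ).Reachable a b) : (ugraph G α β hαβ).Reachable (g • a) (g • b) :=
  h.map (ugraphHom hαβ g)

/-- For a primitive action, the undirected orbital graph is connected. -/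
theorem ugraph_connected [hprim : MulAction.IsPreprimitive G Ω] {α β : Ω} (hαβ : α ≠ β) :
    (ugraph G α β hαβ).Connected := by
  set U := ugraph G α β hαβ with hU
  let C : Set Ω := {z | U.Reachable α z}
  have hblock : MulAction.IsBlock G C := by
    rw [MulAction.isBlock_iff_smul_eq_of_mem]
    intro g a ha hga
    have h1 : U.Reachable (g • α) (g • a) := ugraph_reachable_smul hαβ g ha
    have h2 : U.Reachable α (g • α) := SimpleGraph.Reachable.trans hga h1.symm
    ext z
    constructor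
    · rintro ⟨w, hw, rfl⟩
      exact h2.trans (ugraph_reachable_smul hαβ g hw)
    · intro hz
      refine ⟨g⁻¹ • z, ?_, smul_inv_smul g z⟩
      have h3 := ugraph_reachable_smul hαβ g⁻¹ (h2.symm.trans hz)
      rwa [inv_smul_smul] at h3
  rcases hprim.isTrivialBlock_of_isBlock hblock with hsub | huniv
  · exfalso
    exact hαβ (hsub (SimpleGraph.Reachable.refl α) (ugraph_adj_base hαβ).reachable)
  · rw [SimpleGraph.connected_iff_exists_forall_reachable]
    refine ⟨α, fun w => ?_⟩
    have hw : w ∈ C := huniv ▸ Set.mem_univ w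
    exact hw

theorem ugraph_dist_smul {α β : Ω} (hαβ : α ≠ β) (hconn : (ugraph G α β hαβ).Connected) (g : G)
    (a b : Ω) : (ugraph G α β hαβ).dist (g • a) (g • b) = (ugraph G α β hαβ).dist a b := by
  have key : ∀ (g : G) (a b : Ω),
      (ugraph G α β hαβ).dist (g • a) (g • b) ≤ (ugraph G α β hαβ).dist a b := by
    intro g a b
    obtain ⟨p, hp⟩ := hconn.exists_walk_length_eq_dist a b
    have h1 := SimpleGraph.dist_le (p.map (ugraphHom hαβ g))
    rw [SimpleGraph.Walk.length_map, hp] at h1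
    exact h1
  apply le_antisymm (key g a b)
  have h2 := key g⁻¹ (g • a) (g • b)
  rwa [inv_smul_smul, inv_smul_smul] at h2

section Finite

variable [Fintype Ω] [DecidableEq Ω]

/-- Every edge of the orbital graph of `(α, x • α)` is moved by an element with the same support size
as `x`. -/
theorem exists_move_of_adj (x : G) {α β : Ω} (hαβ : α ≠ β) (hx : x • α = β) {γ δ : Ω}
    (h : (ugraph G α β hαβ).Adj γ δ) :
    ∃ x' : G, x' • γ = δ ∧ (supp Ω x').card = (supp Ω x).card := by
  rcases h with ⟨k, h1, h2⟩ | ⟨k, h1, h2⟩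
  · refine ⟨k * x * k⁻¹, ?_, card_supp_conj k x⟩
    rw [← h1, ← h2, mul_smul, mul_smul, inv_smul_smul, hx]
  · refine ⟨k * x⁻¹ * k⁻¹, ?_, by rw [card_supp_conj, supp_inv]⟩
    have h3 : x⁻¹ • β = α := by rw [inv_smul_eq_iff, hx]
    rw [← h1, ← h2, mul_smul, mul_smul, inv_smul_smul, h3]

variable (G) in
/-- The neighbours of `γ` in the undirected orbital graph, as a finset. -/
noncomputable def unbr (α β γ : Ω) : Finset Ω := outN G α β γ ∪ outN G β α γ

theorem mem_unbr {α β : Ω} (hαβ : α ≠ β) {γ z : Ω} :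
    z ∈ unbr G α β γ ↔ (ugraph G α β hαβ).Adj γ z := by
  rw [unbr, Finset.mem_union, mem_outN, mem_outN, ugraph_adj]
  constructor
  · rintro (⟨k, h1, h2⟩ | ⟨k, h1, h2⟩)
    · exact Or.inl ⟨k, h1, h2⟩
    · exact Or.inr ⟨k, h2, h1⟩
  · rintro (⟨k, h1, h2⟩ | ⟨k, h1, h2⟩)
    · exact Or.inl ⟨k, h1, h2⟩
    · exact Or.inr ⟨k, h2, h1⟩

theorem unbr_isInv (α β : Ω) : IsInv G (unbr G α β) := by
  intro g γ
  rw [unbr, unbr, outN_isInv α β g γ, outN_isInv β α g γ, Finset.smul_finset_union]

theorem card_unbr_le [MulAction.IsPretransitive G Ω] (α β γ : Ω) :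
    (unbr G α β γ).card ≤ 2 * (outN G α β γ).card := by
  have h1 := Finset.card_union_le (outN G α β γ) (outN G β α γ)
  rw [card_outN_swap α β γ] at h1
  rw [unbr]
  omega

/-- `|Ω| - 1 ≤ deg * |supp x|`. -/
theorem card_le_unbr_mul [MulAction.IsPreprimitive G Ω] (x : G) {α β : Ω} (hαβ : α ≠ β)
    (hx : x • α = β) :
    Fintype.card Ω - 1 ≤ (unbr G α β α).card * (supp Ω x).card := by
  classical
  have hconn := ugraph_connected (G := G) hαβ
  set U := ugraph G α β hαβ with hU
  let A : Ω → Finset Ω := fun y => Finset.univ.filter (fun z => U.dist y z < U.dist α z)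
  have hcover : (Finset.univ.erase α : Finset Ω) ⊆ (unbr G α β α).biUnion A := by
    intro z hz
    have hzα : z ≠ α := (Finset.mem_erase.mp hz).1
    obtain ⟨p, hp⟩ := hconn.exists_walk_length_eq_dist α z
    cases p with
    | nil => exact absurd rfl hzα
    | cons hadj p' =>
      rw [Finset.mem_biUnion]
      refine ⟨_, (mem_unbr hαβ).mpr hadj, ?_⟩
      rw [Finset.mem_filter]
      refine ⟨Finset.mem_univ _, ?_⟩
      have h1 := SimpleGraph.dist_le p'
      rw [SimpleGraph.Walk.length_cons] at hp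
      omega
  have hA : ∀ y ∈ unbr G α β α, (A y).card ≤ (supp Ω x).card := by
    intro y hy
    obtain ⟨x', hx', hcard⟩ := exists_move_of_adj x hαβ hx ((mem_unbr hαβ).mp hy)
    rw [← hcard]
    apply Finset.card_le_card
    intro z hz
    rw [Finset.mem_filter] at hz
    rw [mem_supp]
    intro hfix
    have h2 : U.dist (x' • α) (x' • z) = U.dist α z := ugraph_dist_smul hαβ hconn x' α z
    rw [hx', hfix] at h2
    omega
  calc Fintype.card Ω - 1 = (Finset.univ.erase α : Finset Ω).card := by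
        rw [Finset.card_erase_of_mem (Finset.mem_univ _), Finset.card_univ]
    _ ≤ ((unbr G α β α).biUnion A).card := Finset.card_le_card hcover
    _ ≤ ∑ y ∈ unbr G α β α, (A y).card := Finset.card_biUnion_le
    _ ≤ ∑ _y ∈ unbr G α β α, (supp Ω x).card := Finset.sum_le_sum hA
    _ = (unbr G α β α).card * (supp Ω x).card := by rw [Finset.sum_const, smul_eq_mul]

end Finite

end Graph

section Near

variable {Ω : Type*}

/-- `z` is within distance `2` of `γ`. -/
def Near (U : SimpleGraph Ω) (γ z : Ω) : Prop :=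
  z = γ ∨ U.Adj γ z ∨ ∃ w, U.Adj γ w ∧ U.Adj w z

/-- In a connected graph, a vertex not within distance `2` of `γ` yields an edge leaving the
`2`-ball. -/
theorem exists_far_step (U : SimpleGraph Ω) (hconn : U.Connected) {γ z : Ω} (h : ¬ Near U γ z) :
    ∃ a b, Near U γ a ∧ U.Adj a b ∧ ¬ Near U γ b := by
  have key : ∀ (a : Ω) (_p : U.Walk a z), Near U γ a →
      ∃ a b, Near U γ a ∧ U.Adj a b ∧ ¬ Near U γ b := by
    intro a p
    induction p with
    | nil => intro hna; exact absurd hna h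
    | cons hadj p' ih =>
      intro hna
      rename_i u v w
      by_cases hb : Near U γ v
      · exact ih h hb
      · exact ⟨_, _, hna, hadj, hb⟩
  obtain ⟨p⟩ := hconn.preconnected γ z
  exact key γ p (Or.inl rfl)

variable [Fintype Ω] [DecidableEq Ω]

theorem two_mul_card_sdiff_le_of_near {m : ℕ} (U : SimpleGraph Ω) (N : Ω → Finset Ω)
    (hstep : ∀ a b, U.Adj a b → 2 * (N a \ N b).card ≤ m) {γ a : Ω} (h : Near U γ a) :
    2 * (N γ \ N a).card ≤ 2 * m := by
  rcases h with rfl | h | ⟨w, h1, h2⟩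
  · rw [Finset.sdiff_self, Finset.card_empty]; omega
  · have := hstep γ a h; omega
  · have t := card_sdiff_triangle N γ w a
    have s1 := hstep γ w h1
    have s2 := hstep w a h2
    omega

theorem two_mul_card_sdiff_le_of_far {m : ℕ} (U : SimpleGraph Ω) (N : Ω → Finset Ω)
    (hstep : ∀ a b, U.Adj a b → 2 * (N a \ N b).card ≤ m) {γ a b : Ω} (h : Near U γ a)
    (hab : U.Adj a b) : 2 * (N γ \ N b).card ≤ 3 * m := by
  have t := card_sdiff_triangle N γ a b
  have s1 := two_mul_card_sdiff_le_of_near U N hstep h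
  have s2 := hstep a b hab
  omega

end Near

end Cfsg.Agent.Lib.Helper95.Babai
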