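import Mathlib
import Cfsg.Agent.Lib.Helper95.Babai.Basic

/-!
# Babai's minimal degree bound: counting and the Moore-type bound

* `card_mul_le_of_forall_sdiff`: if `|N γ \ N δ| ≤ m` for all `δ ≠ γ` (`N` the out-neighbourhood of an
  orbital, `n₁ = |N γ|`), then `n₁ (n - n₁) ≤ (n - 1) m`.
* `card_outN_le_sq`: for a primitive action, `n₁ ≤ s²` where `s = n - 1 - n₁ > 0` is the number of
  points outside `{α} ∪ N α`.
-/

set_option autoImplicit false
set_option linter.unusedSectionVars false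

namespace Cfsg.Agent.Lib.Helper95.Babai

open scoped Pointwise

variable {G : Type*} [Group G] {Ω : Type*} [MulAction G Ω] [Fintype Ω] [DecidableEq Ω]

/-- Summing `|N γ \ N δ|` over `δ ≠ γ`. -/
theorem sum_card_sdiff_outN [MulAction.IsPretransitive G Ω] (α β γ : Ω) :
    ∑ δ ∈ Finset.univ.erase γ, (outN G α β γ \ outN G α β δ).card =
      (outN G α β γ).card * (Fintype.card Ω - (outN G α β γ).card) := by
  classical
  have hcount : ∀ z ∈ outN G α β γ,
      ((Finset.univ.erase γ).filter (fun δ => z ∉ outN G α β δ)).card =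
        Fintype.card Ω - (outN G α β γ).card := by
    intro z hz
    have heq : (Finset.univ.erase γ).filter (fun δ => z ∉ outN G α β δ) =
        Finset.univ \ outN G β α z := by
      ext δ
      rw [Finset.mem_filter, Finset.mem_erase, Finset.mem_sdiff,
        mem_outN_swap (α := α) (β := β) (γ := δ) (δ := z)]
      constructor
      · rintro ⟨-, h2⟩
        exact ⟨Finset.mem_univ _, h2⟩
      · rintro ⟨-, h2⟩
        refine ⟨⟨?_, Finset.mem_univ _⟩, h2⟩
        rintro rfl
        exact h2 (mem_outN_swap.mp hz)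
    rw [heq, Finset.card_univ_sdiff, card_outN_swap α β z, (outN_isInv α β).card_eq z γ]
  have e : ∀ δ : Ω, (outN G α β γ \ outN G α β δ).card =
      ∑ z ∈ outN G α β γ, if z ∉ outN G α β δ then 1 else 0 := by
    intro δ
    rw [Finset.sdiff_eq_filter, Finset.card_filter]
  simp_rw [e]
  rw [Finset.sum_comm]
  have e2 : ∀ z ∈ outN G α β γ,
      (∑ δ ∈ Finset.univ.erase γ, if z ∉ outN G α β δ then 1 else 0) =
        Fintype.card Ω - (outN G α β γ).card := by
    intro z hz
    rw [← Finset.card_filter]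
    exact hcount z hz
  rw [Finset.sum_congr rfl e2, Finset.sum_const, smul_eq_mul]

/-- If all pairs satisfy `|N γ \ N δ| ≤ m` then `n₁ (n - n₁) ≤ (n - 1) m`. -/
theorem card_mul_le_of_forall_sdiff [MulAction.IsPretransitive G Ω] (α β γ : Ω) {m : ℕ}
    (h : ∀ δ, δ ≠ γ → (outN G α β γ \ outN G α β δ).card ≤ m) :
    (outN G α β γ).card * (Fintype.card Ω - (outN G α β γ).card) ≤ (Fintype.card Ω - 1) * m := by
  rw [← sum_card_sdiff_outN α β γ]
  calc ∑ δ ∈ Finset.univ.erase γ, (outN G α β γ \ outN G α β δ).card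
      ≤ ∑ _δ ∈ Finset.univ.erase γ, m :=
        Finset.sum_le_sum (fun δ hδ => h δ (Finset.mem_erase.mp hδ).1)
    _ = (Fintype.card Ω - 1) * m := by
        rw [Finset.sum_const, smul_eq_mul, Finset.card_erase_of_mem (Finset.mem_univ _),
          Finset.card_univ]

variable (G) in
/-- The points outside `{γ} ∪ N γ`. -/
noncomputable def coN (α β γ : Ω) : Finset Ω := Finset.univ \ insert γ (outN G α β γ)

theorem mem_coN {α β γ z : Ω} : z ∈ coN G α β γ ↔ z ≠ γ ∧ z ∉ outN G α β γ := by
  rw [coN, Finset.mem_sdiff, Finset.mem_insert, not_or]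
  exact ⟨fun h => h.2, fun h => ⟨Finset.mem_univ _, h⟩⟩

theorem coN_isInv (α β : Ω) : IsInv G (coN G α β) := by
  intro g γ
  ext z
  rw [← Finset.inv_smul_mem_iff, mem_coN, mem_coN, outN_isInv α β g γ, ← Finset.inv_smul_mem_iff,
    Ne, Ne, inv_smul_eq_iff]

theorem card_coN {α β : Ω} (hαβ : α ≠ β) (γ : Ω) :
    (coN G α β γ).card = Fintype.card Ω - 1 - (outN G α β γ).card := by
  rw [coN, Finset.card_univ_sdiff, Finset.card_insert_of_notMem (notMem_outN_self hαβ γ)]
  omega

theorem card_coN_add {α β : Ω} (hαβ : α ≠ β) (γ : Ω) :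
    (coN G α β γ).card + (outN G α β γ).card + 1 = Fintype.card Ω := by
  have h1 : (insert γ (outN G α β γ)).card ≤ Fintype.card Ω := Finset.card_le_univ _
  rw [Finset.card_insert_of_notMem (notMem_outN_self hαβ γ)] at h1
  rw [card_coN hαβ γ]
  omega

/-- A proper nonempty subset closed under an invariant, irreflexive, nonempty neighbourhood system
contradicts primitivity. -/
theorem false_of_closed [hprim : MulAction.IsPreprimitive G Ω] (Y : Ω → Finset Ω) (hY : IsInv G Y)
    (hne : ∀ w, (Y w).Nonempty) (hirr : ∀ w, w ∉ Y w)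
    (B₀ : Finset Ω) (hB₀ne : B₀.Nonempty) (hB₀ : B₀ ≠ Finset.univ)
    (hclosed : ∀ w ∈ B₀, Y w ⊆ B₀) : False := by
  classical
  let P : Finset Ω → Prop := fun B => B.Nonempty ∧ ∀ w ∈ B, Y w ⊆ B
  have hex : ∃ k : ℕ, ∃ B : Finset Ω, P B ∧ B.card = k := ⟨_, B₀, ⟨hB₀ne, hclosed⟩, rfl⟩
  obtain ⟨B, hPB, hBk⟩ := Nat.find_spec hex
  have hmin : ∀ B' : Finset Ω, P B' → B.card ≤ B'.card := by
    intro B' hB'
    rw [hBk]
    exact Nat.find_min' hex ⟨B', hB', rfl⟩
  have hblock : MulAction.IsBlock G (B : Set Ω) := by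
    rw [MulAction.isBlock_iff_smul_eq_of_mem]
    intro g a ha hga
    have hgB : ∀ w ∈ g • B, Y w ⊆ g • B := by
      intro w hw
      have h1 : g⁻¹ • w ∈ B := Finset.inv_smul_mem_iff.mpr hw
      have h2 := hPB.2 _ h1
      have h3 : Y w = g • Y (g⁻¹ • w) := by rw [← hY, smul_inv_smul]
      rw [h3]
      intro z hz
      obtain ⟨y, hy, rfl⟩ := Finset.mem_smul_finset.mp hz
      exact Finset.smul_mem_smul_finset (h2 hy)
    have hint : P (B ∩ g • B) := by
      refine ⟨⟨g • a, Finset.mem_inter.mpr ⟨hga, Finset.smul_mem_smul_finset ha⟩⟩, ?_⟩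
      intro w hw
      rw [Finset.mem_inter] at hw
      exact Finset.subset_inter (hPB.2 w hw.1) (hgB w hw.2)
    have hle := hmin _ hint
    have h1 : B ∩ g • B = B := Finset.eq_of_subset_of_card_le Finset.inter_subset_left hle
    have h2 : B ⊆ g • B := by
      intro z hz
      have hz' : z ∈ B ∩ g • B := by rw [h1]; exact hz
      exact (Finset.mem_inter.mp hz').2
    have h3 : B = g • B :=
      Finset.eq_of_subset_of_card_le h2 (by rw [Finset.card_smul_finset])
    rw [← Finset.coe_smul_finset, ← h3]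
  rcases hprim.isTrivialBlock_of_isBlock hblock with hsub | huniv
  · obtain ⟨w, hw⟩ := hPB.1
    obtain ⟨y, hy⟩ := hne w
    have h1 : w = y := hsub (Finset.mem_coe.mpr hw) (Finset.mem_coe.mpr (hPB.2 w hw hy))
    exact hirr w (h1 ▸ hy)
  · have hBuniv : B = Finset.univ := Finset.coe_injective (by rw [huniv, Finset.coe_univ])
    have h1 := hmin B₀ ⟨hB₀ne, hclosed⟩
    rw [hBuniv] at h1
    exact hB₀ (Finset.eq_univ_of_card B₀ (le_antisymm (Finset.card_le_univ _) h1))

/-- **Moore-type bound.** For a primitive action, if `s = |Ω \ ({α} ∪ N α)| > 0` then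
`|N α| ≤ s²`. -/
theorem card_outN_le_sq [hprim : MulAction.IsPreprimitive G Ω] {α β : Ω} (hαβ : α ≠ β)
    (hs : 0 < (coN G α β α).card) :
    (outN G α β α).card ≤ (coN G α β α).card * (coN G α β α).card := by
  classical
  by_cases hZ : ∃ z ∈ outN G α β α, ∃ w ∈ coN G α β α, z ∈ coN G α β w
  · obtain ⟨z₀, hz₀, w₀, hw₀, hzw₀⟩ := hZ
    have hsub : outN G α β α ⊆ (coN G α β α).biUnion (coN G α β) := by
      intro z hz
      obtain ⟨k₀, hk₀α, hk₀β⟩ := mem_outN.mp hz₀
      obtain ⟨k, hkα, hkβ⟩ := mem_outN.mp hz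
      have hgα : (k * k₀⁻¹) • α = α := by
        rw [mul_smul, inv_smul_eq_iff.mpr hk₀α.symm, hkα]
      have hgz : (k * k₀⁻¹) • z₀ = z := by
        rw [← hk₀β, mul_smul, inv_smul_smul, hkβ]
      rw [Finset.mem_biUnion]
      refine ⟨(k * k₀⁻¹) • w₀, ?_, ?_⟩
      · have h1 := ((coN_isInv α β).smul_mem_iff (k * k₀⁻¹) (γ := α) (z := w₀)).mpr hw₀
        rwa [hgα] at h1
      · rw [← hgz]
        exact ((coN_isInv α β).smul_mem_iff (k * k₀⁻¹)).mpr hzw₀
    calc (outN G α β α).card ≤ ((coN G α β α).biUnion (coN G α β)).card :=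
          Finset.card_le_card hsub
      _ ≤ ∑ w ∈ coN G α β α, (coN G α β w).card := Finset.card_biUnion_le
      _ = ∑ _w ∈ coN G α β α, (coN G α β α).card :=
          Finset.sum_congr rfl (fun w _ => (coN_isInv α β).card_eq w α)
      _ = (coN G α β α).card * (coN G α β α).card := by rw [Finset.sum_const, smul_eq_mul]
  · exfalso
    have hZ' : ∀ z ∈ outN G α β α, ∀ w ∈ coN G α β α, z ∉ coN G α β w :=
      fun z hz w hw hzw => hZ ⟨z, hz, w, hw, hzw⟩
    have hβ : β ∈ outN G α β α := mem_outN.mpr ⟨1, one_smul _ _, one_smul _ _⟩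
    refine false_of_closed (G := G) (coN G α β) (coN_isInv α β) ?_ ?_ (insert α (coN G α β α))
      (Finset.insert_nonempty _ _) ?_ ?_
    · intro w
      rw [← Finset.card_pos, (coN_isInv α β).card_eq w α]
      exact hs
    · intro w hw
      exact (mem_coN.mp hw).1 rfl
    · intro h
      have h1 : β ∈ insert α (coN G α β α) := h ▸ Finset.mem_univ β
      rw [Finset.mem_insert] at h1
      rcases h1 with h1 | h1
      · exact hαβ h1.symm
      · exact (mem_coN.mp h1).2 hβ
    · intro w hw z hz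
      rw [Finset.mem_insert] at hw ⊢
      by_cases hzα : z = α
      · exact Or.inl hzα
      · right
        rw [mem_coN]
        refine ⟨hzα, fun hzN => ?_⟩
        rcases hw with rfl | hw
        · exact (mem_coN.mp hz).2 hzN
        · exact hZ' z hzN w hw hz

end Cfsg.Agent.Lib.Helper95.Babai
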