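import Mathlib
import Cfsg.Agent.Lib.Helper95.Babai.Basic
import Cfsg.Agent.Lib.Helper95.Babai.Graph
import Cfsg.Agent.Lib.Helper95.Babai.Moore
import Cfsg.Agent.Lib.Helper96.BochertPB1
import Cfsg.Agent.Lib.Helper96.BochertPB2

/-!
# Babai's minimal degree bound: assembly

For a primitive action of a finite group `G` on `Ω` whose image does not contain the alternating
group, every `x` moving a point satisfies `|Ω| ≤ (2 |supp x| + 1)²`.
-/

set_option autoImplicit false
set_option linter.unusedSectionVars false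

namespace Cfsg.Agent.Lib.Helper95.Babai

open scoped Pointwise

variable {G : Type*} [Group G] {Ω : Type*} [MulAction G Ω] [Fintype Ω] [DecidableEq Ω]

theorem step_bound (x : G) {α β : Ω} (hαβ : α ≠ β) (hx : x • α = β) (M : Ω → Finset Ω)
    (hM : IsInv G M) (a b : Ω) (hab : (ugraph G α β hαβ).Adj a b) :
    2 * (M a \ M b).card ≤ (supp Ω x).card := by
  obtain ⟨x', hx', hcard⟩ := exists_move_of_adj x hαβ hx hab
  rw [← hcard]
  exact hM.two_mul_card_sdiff_le hx'

/-- The case where the stabilizer of `α` is not transitive on the remaining points. -/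
theorem card_le_of_coN_pos [MulAction.IsPreprimitive G Ω] (x : G) {α β : Ω} (hαβ : α ≠ β)
    (hx : x • α = β) (hs : 0 < (coN G α β α).card) :
    Fintype.card Ω ≤ (2 * (supp Ω x).card + 1) ^ 2 := by
  classical
  have hαS : α ∈ supp Ω x := mem_supp.mpr (by rw [hx]; exact hαβ.symm)
  have hmpos : 0 < (supp Ω x).card := Finset.card_pos.mpr ⟨α, hαS⟩
  have hconn := ugraph_connected (G := G) hαβ
  have hP3 : Fintype.card Ω - 1 ≤ (unbr G α β α).card * (supp Ω x).card :=
    card_le_unbr_mul x hαβ hx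
  have hnpos : 1 ≤ Fintype.card Ω := Fintype.card_pos_iff.mpr ⟨α⟩
  generalize hm : (supp Ω x).card = m at hP3 hmpos ⊢
  generalize hn : Fintype.card Ω = n at hP3 hnpos ⊢
  by_cases hfar : ∃ γ z, ¬ Near (ugraph G α β hαβ) γ z
  · obtain ⟨γ, z, hz⟩ := hfar
    obtain ⟨a, b, hna, hab, hnb⟩ := exists_far_step _ hconn hz
    have h3 := two_mul_card_sdiff_le_of_far (ugraph G α β hαβ) (unbr G α β)
      (step_bound x hαβ hx _ (unbr_isInv α β)) hna hab
    have hdisj : unbr G α β γ \ unbr G α β b = unbr G α β γ := by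
      rw [Finset.sdiff_eq_self_iff_disjoint, Finset.disjoint_left]
      intro w hw hw'
      exact hnb (Or.inr (Or.inr ⟨w, (mem_unbr hαβ).mp hw, ((mem_unbr hαβ).mp hw').symm⟩))
    rw [hdisj, (unbr_isInv α β).card_eq γ α, hm] at h3
    generalize (unbr G α β α).card = v at hP3 h3
    have h4 : (2 * v) * m ≤ (3 * m) * m := Nat.mul_le_mul_right m h3
    have h5 : n ≤ v * m + 1 := by omega
    nlinarith
  · have hnear : ∀ γ z, Near (ugraph G α β hαβ) γ z := by
      intro γ z
      by_contra h
      exact hfar ⟨γ, z, h⟩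
    have hall : ∀ δ, δ ≠ α → (outN G α β α \ outN G α β δ).card ≤ m := by
      intro δ _
      have h1 := two_mul_card_sdiff_le_of_near (ugraph G α β hαβ) (outN G α β)
        (step_bound x hαβ hx _ (outN_isInv α β)) (hnear α δ)
      rw [hm] at h1
      omega
    have hstar := card_mul_le_of_forall_sdiff α β α hall
    have hadd := card_coN_add (G := G) hαβ α
    have hn1pos : 0 < (outN G α β α).card :=
      Finset.card_pos.mpr ⟨β, mem_outN.mpr ⟨1, one_smul _ _, one_smul _ _⟩⟩
    have hv := card_unbr_le (G := G) α β α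
    have hmoore := card_outN_le_sq (G := G) hαβ hs
    rw [hn] at hstar hadd
    generalize (coN G α β α).card = s at hs hadd hmoore
    generalize (outN G α β α).card = n₁ at hstar hadd hn1pos hv hmoore
    generalize (unbr G α β α).card = v at hP3 hv
    have e1 : n - n₁ = s + 1 := by omega
    have e2 : n - 1 = s + n₁ := by omega
    rw [e1, e2] at hstar
    by_cases hsn : s ≤ n₁
    · have h1 : n₁ * (s + 1) ≤ n₁ * (2 * m) := by
        calc n₁ * (s + 1) ≤ (s + n₁) * m := hstar
          _ ≤ (n₁ + n₁) * m := Nat.mul_le_mul_right m (by omega)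
          _ = n₁ * (2 * m) := by ring
      have h2 : s + 1 ≤ 2 * m := Nat.le_of_mul_le_mul_left h1 hn1pos
      have h3 := Nat.mul_le_mul h2 h2
      nlinarith
    · have hlt : n₁ < s := not_le.mp hsn
      have h1 : n₁ * (s + 1) < (2 * m) * (s + 1) := by
        calc n₁ * (s + 1) ≤ (s + n₁) * m := hstar
          _ < (s + s) * m := (Nat.mul_lt_mul_right hmpos).mpr (by omega)
          _ ≤ (2 * m) * (s + 1) := by nlinarith
      have h2 : n₁ < 2 * m := lt_of_mul_lt_mul_right h1 (Nat.zero_le _)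
      have h3 : v * m ≤ (2 * n₁) * m := Nat.mul_le_mul_right m hv
      have h4 : (2 * n₁) * m ≤ (2 * (2 * m)) * m := Nat.mul_le_mul_right m (by omega)
      have h5 : n ≤ v * m + 1 := by omega
      nlinarith

/-- The doubly transitive case: Bochert's commutator argument and Jordan's theorem. -/
theorem card_le_of_coN_eq_zero [Finite G] [hprim : MulAction.IsPreprimitive G Ω]
    (hA : ¬ alternatingGroup Ω ≤ (MulAction.toPermHom G Ω).range)
    (x : G) {α β : Ω} (hαβ : α ≠ β) (hx : x • α = β) (hs : (coN G α β α).card = 0) :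
    Fintype.card Ω ≤ (2 * (supp Ω x).card + 1) ^ 2 := by
  classical
  by_contra hcon
  rw [not_le] at hcon
  have hαS : α ∈ supp Ω x := mem_supp.mpr (by rw [hx]; exact hαβ.symm)
  have hco : ∀ z, z ≠ α → z ∈ outN G α β α := by
    intro z hz
    by_contra h
    have h1 : z ∈ coN G α β α := mem_coN.mpr ⟨hz, h⟩
    rw [Finset.card_eq_zero] at hs
    rw [hs] at h1
    exact absurd h1 (Finset.notMem_empty _)
  let T : Finset Ω := Finset.univ.erase α
  let A : Finset Ω := (supp Ω x).erase α
  have hAT : A ⊆ T := Finset.erase_subset_erase _ (Finset.subset_univ _)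
  have hTinv : ∀ (h : MulAction.stabilizer G α), ∀ u ∈ T, h • u ∈ T := by
    intro h u hu
    rw [Finset.mem_erase] at hu ⊢
    refine ⟨fun h1 => hu.1 ?_, Finset.mem_univ _⟩
    have h2 : (h : G) • α = α := h.2
    have h3 : (h : G) • u = (h : G) • α := by rw [h2]; exact h1
    exact smul_left_cancel _ h3
  have htrans : ∀ u ∈ T, ∀ w ∈ T, ∃ h : MulAction.stabilizer G α, h • u = w := by
    intro u hu w hw
    obtain ⟨k₁, hk₁α, hk₁β⟩ := mem_outN.mp (hco u (Finset.mem_erase.mp hu).1)
    obtain ⟨k₂, hk₂α, hk₂β⟩ := mem_outN.mp (hco w (Finset.mem_erase.mp hw).1)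
    refine ⟨⟨k₂ * k₁⁻¹, ?_⟩, ?_⟩
    · rw [MulAction.mem_stabilizer_iff, mul_smul, inv_smul_eq_iff.mpr hk₁α.symm, hk₂α]
    · show (k₂ * k₁⁻¹) • u = w
      rw [← hk₁β, mul_smul, inv_smul_smul, hk₂β]
  have hAcard : A.card = (supp Ω x).card - 1 := Finset.card_erase_of_mem hαS
  have hTcard : T.card = Fintype.card Ω - 1 := by
    rw [Finset.card_erase_of_mem (Finset.mem_univ _), Finset.card_univ]
  have hlt : A.card * A.card < T.card := by
    rw [hAcard, hTcard]
    have h1 : ((supp Ω x).card - 1) * ((supp Ω x).card - 1) ≤ (supp Ω x).card * (supp Ω x).card :=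
      Nat.mul_le_mul (Nat.sub_le _ _) (Nat.sub_le _ _)
    have h2 : (supp Ω x).card * (supp Ω x).card + 2 ≤ Fintype.card Ω := by nlinarith
    omega
  obtain ⟨h, hh⟩ := Cfsg.Agent.Lib.Helper96.Bochert.exists_smul_disjoint
    (H := MulAction.stabilizer G α) T A hAT hTinv htrans hlt
  obtain ⟨k, hkstab⟩ := h
  have hkα : k • α = α := hkstab
  have hh' : ∀ u ∈ A, k • u ∉ A := hh
  let σ : Equiv.Perm Ω := MulAction.toPerm x
  let τ : Equiv.Perm Ω := MulAction.toPerm (k * x * k⁻¹)
  have hσ : σ.support = supp Ω x := by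
    ext z
    rw [Equiv.Perm.mem_support, mem_supp]
    rfl
  have hτ : τ.support = k • supp Ω x := by
    rw [← supp_conj]
    ext z
    rw [Equiv.Perm.mem_support, mem_supp]
    rfl
  have hinter : σ.support ∩ τ.support = {α} := by
    rw [hσ, hτ]
    ext z
    rw [Finset.mem_inter, Finset.mem_singleton, ← Finset.inv_smul_mem_iff]
    constructor
    · rintro ⟨hz1, hz2⟩
      by_contra hzα
      have hzA : z ∈ A := Finset.mem_erase.mpr ⟨hzα, hz1⟩
      have hz'A : k⁻¹ • z ∈ A := by
        refine Finset.mem_erase.mpr ⟨fun h1 => hzα ?_, hz2⟩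
        rw [inv_smul_eq_iff, hkα] at h1
        exact h1
      have h5 := hh' (k⁻¹ • z) hz'A
      rw [smul_inv_smul] at h5
      exact h5 hzA
    · rintro rfl
      refine ⟨hαS, ?_⟩
      rw [inv_smul_eq_iff.mpr hkα.symm]
      exact hαS
  have h3 := Cfsg.Agent.Lib.Helper96.Bochert.isThreeCycle_commutator_of_support_inter σ τ α hinter
  have hmem : σ * τ * σ⁻¹ * τ⁻¹ ∈ (MulAction.toPermHom G Ω).range := by
    refine ⟨x * (k * x * k⁻¹) * x⁻¹ * (k * x * k⁻¹)⁻¹, ?_⟩
    rw [map_mul, map_mul, map_mul, map_inv, map_inv]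
    rfl
  have hprimR : MulAction.IsPreprimitive (MulAction.toPermHom G Ω).range Ω := by
    let φ : G → (MulAction.toPermHom G Ω).range := fun g => (MulAction.toPermHom G Ω).rangeRestrict g
    let f : Ω →ₑ[φ] Ω := { toFun := id, map_smul' := fun _ _ => rfl }
    exact MulAction.IsPreprimitive.of_surjective (f := f) Function.surjective_id
  exact hA (Equiv.Perm.alternatingGroup_le_of_isPreprimitive_of_isThreeCycle_mem hprimR h3 hmem)

/-- **Babai's bound.** A primitive action of a finite group whose image does not contain the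
alternating group: every `x` moving a point `α` satisfies `|Ω| ≤ (2 |supp x| + 1)²`. -/
theorem card_le_sq [Finite G] [MulAction.IsPreprimitive G Ω]
    (hA : ¬ alternatingGroup Ω ≤ (MulAction.toPermHom G Ω).range)
    (x : G) (α : Ω) (hxα : x • α ≠ α) :
    Fintype.card Ω ≤ (2 * (supp Ω x).card + 1) ^ 2 := by
  rcases Nat.eq_zero_or_pos (coN G α (x • α) α).card with h | h
  · exact card_le_of_coN_eq_zero hA x (Ne.symm hxα) rfl h
  · exact card_le_of_coN_pos x (Ne.symm hxα) rfl h

end Cfsg.Agent.Lib.Helper95.Babai
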